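import Cfsg.Agent.Sz.Structure
import Cfsg.Agent.Solv.Core
import Cfsg.Prelude.Def_Transfer

/-! The automorphism group of the Sylow 2-subgroup of a Suzuki group. -/

set_option autoImplicit false
set_option linter.unusedSectionVars false

namespace Cfsg.Agent.Sz.AutU

open Subgroup

variable {F : Type*} [Field F] [Tits F]

section Gal
variable [Finite F] [Algebra (ZMod 2) F]

theorem gal_comm (σ τ : F ≃ₐ[ZMod 2] F) : σ * τ = τ * σ :=
  (inferInstance : IsMulCommutative (F ≃ₐ[ZMod 2] F)).1.1 σ τ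

theorem gal_li : LinearIndependent F fun σ : F ≃ₐ[ZMod 2] F => σ.toLinearMap :=
  (linearIndependent_toLinearMap (ZMod 2) F F).comp (fun σ : F ≃ₐ[ZMod 2] F => (σ : F →ₐ[ZMod 2] F))
    fun _ _ h => AlgEquiv.ext fun x => DFunLike.congr_fun h x

theorem gal_ind {c : (F ≃ₐ[ZMod 2] F) → F} (h : ∀ x, ∑ σ, c σ * σ x = 0) (σ : F ≃ₐ[ZMod 2] F) : c σ = 0 := by
  refine Fintype.linearIndependent_iff.1 (gal_li (F := F)) c (LinearMap.ext fun x => ?_) σ
  rw [LinearMap.sum_apply]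
  exact h x

theorem gal_span (φ : F →+ F) : ∃ a : (F ≃ₐ[ZMod 2] F) → F, ∀ x, φ x = ∑ σ, a σ * σ x := by
  have h := gal_li.span_eq_top_of_card_eq_finrank (K := F) (V := F →ₗ[ZMod 2] F) (by
    rw [Module.finrank_linearMap_self, ← Nat.card_eq_fintype_card, IsGalois.card_aut_eq_finrank])
  obtain ⟨a, ha⟩ := (Submodule.mem_span_range_iff_exists_fun F).1
    (h ▸ Submodule.mem_top : φ.toZModLinearMap 2 ∈ Submodule.span F _)
  exact ⟨a, fun x => by simpa using (DFunLike.congr_fun ha x).symm⟩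

theorem gal_quad {c : (F ≃ₐ[ZMod 2] F) → (F ≃ₐ[ZMod 2] F) → F} (h : ∀ x, ∑ σ, ∑ τ, c σ τ * (σ x * τ x) = 0) :
    (∀ σ τ, c σ τ + c τ σ = 0) ∧ ∀ σ, c σ σ = 0 := by
  classical
  have h1 : ∀ σ τ, c σ τ + c τ σ = 0 := fun σ τ => by
    refine gal_ind (c := fun τ => c σ τ + c τ σ) (fun y => ?_) τ
    refine gal_ind (c := fun σ => ∑ τ, (c σ τ + c τ σ) * τ y) (fun x => ?_) σ
    have e : ∑ σ, ∑ τ, c σ τ * (σ y * τ x) = ∑ σ, ∑ τ, c τ σ * (τ y * σ x) := Finset.sum_comm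
    have e2 := h (x + y)
    simp only [map_add, add_mul, mul_add, Finset.sum_add_distrib, h, e, Finset.sum_mul, mul_assoc] at e2 ⊢
    rw [zero_add, add_zero, add_comm] at e2
    rw [← e2]
    congr 1
    exact Finset.sum_congr rfl fun _ _ => Finset.sum_congr rfl fun _ _ => by ring
  refine ⟨h1, gal_ind fun x => ?_⟩
  obtain ⟨x, rfl⟩ := sq_surjective x
  have e := Finset.sum_ninvolution (s := Finset.univ)
    (f := fun p : (F ≃ₐ[ZMod 2] F) × (F ≃ₐ[ZMod 2] F) => c p.1 p.2 * (p.1 x * p.2 x) +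
      if p.1 = p.2 then c p.1 p.1 * p.1 (x ^ 2) else 0) Prod.swap
    (fun p => by
      obtain ⟨σ, τ⟩ := p
      by_cases e : σ = τ
      · subst e; exact CharTwo.add_self_eq_zero _
      · simp only [Prod.swap, if_neg e, if_neg (Ne.symm e)]
        linear_combination σ x * τ x * h1 σ τ)
    (fun p hp e => hp (by
      obtain ⟨σ, τ⟩ := p
      obtain rfl : τ = σ := congrArg Prod.fst e
      simp only [if_true, map_mul, sq]
      exact CharTwo.add_self_eq_zero _)) (fun _ => Finset.mem_univ _) Prod.swap_swap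
  rw [Finset.sum_add_distrib, Fintype.sum_prod_type, h, zero_add, Fintype.sum_prod_type] at e
  simpa using e

variable (F) in
/-- The Tits endomorphism as a Galois automorphism. -/
noncomputable def th : F ≃ₐ[ZMod 2] F :=
  AlgEquiv.ofBijective ⟨θ, fun r => DFunLike.congr_fun (Subsingleton.elim ((θ : F →+* F).comp (algebraMap _ F)) (algebraMap _ F)) r⟩ ⟨(θ : F →+* F).injective, θ_surjective⟩

theorem th_apply (x : F) : th F x = θ x := rfl

theorem th_ne : th F ≠ 1 := fun h => by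
  obtain ⟨a, h0, h1⟩ := Tits.big (F := F)
  exact (θ_eq_self_iff.1 (DFunLike.congr_fun h a)).elim h0 h1

theorem gal_θ (σ : F ≃ₐ[ZMod 2] F) (x : F) : σ (θ x) = θ (σ x) := DFunLike.congr_fun (gal_comm σ (th F)) x

theorem gold (ho : Odd (Module.finrank (ZMod 2) F)) (φ ψ : F →+ F) (h : ∀ x, ψ (x * θ x) = φ x * θ (φ x)) :
    ∃ (l : F) (σ : F ≃ₐ[ZMod 2] F), ∀ x, φ x = l * σ x := by
  classical
  obtain ⟨a, ha⟩ := gal_span φ
  obtain ⟨b, hb⟩ := gal_span ψ
  obtain ⟨h1, h2⟩ := gal_quad (c := fun σ τ => a σ * θ (a ((th F)⁻¹ * τ)) + if τ = th F * σ then b σ else 0)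
    fun x => by
      have e1 : θ (φ x) = ∑ τ, θ (a ((th F)⁻¹ * τ)) * τ x := by
        rw [ha, map_sum, ← Equiv.sum_comp (Equiv.mulLeft (th F)) fun τ => θ (a ((th F)⁻¹ * τ)) * τ x]
        simp [th_apply]
      have e2 := h x
      rw [e1, ha, hb, Finset.sum_mul_sum] at e2
      simp only [add_mul, Finset.sum_add_distrib, ite_mul, zero_mul, Finset.sum_ite_eq', Finset.mem_univ, if_true,
        AlgEquiv.mul_apply, th_apply, ← gal_θ, ← map_mul, e2]
      rw [add_eq_zero_iff']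
      exact Finset.sum_congr rfl fun _ _ => Finset.sum_congr rfl fun _ _ => by ring
  have h3 : ∀ σ ρ, a σ ≠ 0 → a ρ ≠ 0 → σ ≠ ρ → σ = th F ^ 2 * ρ := fun σ ρ hσ hρ hne => by
    by_contra hn
    have e1 := h1 σ (th F * ρ)
    have e2 := h2 σ
    rw [if_neg fun e => th_ne (by simpa using e.symm), add_zero, mul_eq_zero, or_iff_right hσ] at e2
    rw [if_neg fun e => hne (mul_left_cancel e).symm, if_neg fun e => hn (by rw [e, sq, mul_assoc]), e2,
      inv_mul_cancel_left] at e1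
    simp [hσ, hρ] at e1
  by_cases h0 : ∃ σ, a σ ≠ 0
  · obtain ⟨σ, hσ⟩ := h0
    refine ⟨a σ, σ, fun x => (ha x).trans (Finset.sum_eq_single σ (fun ρ _ hne => ?_) (by simp))⟩
    by_contra hρ
    have e1 := h3 _ _ hσ (left_ne_zero_of_mul hρ) hne.symm
    rw [h3 _ _ (left_ne_zero_of_mul hρ) hσ hne, ← mul_assoc, ← pow_add, eq_comm, mul_eq_right] at e1
    refine th_ne (F := F) (orderOf_eq_one_iff.1 (Nat.eq_one_of_dvd_coprimes (a := 2 ^ 2) ?_
      (orderOf_dvd_of_pow_eq_one e1) (orderOf_dvd_natCard _)))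
    rw [IsGalois.card_aut_eq_finrank]
    exact (Nat.coprime_two_left.2 ho).pow_left 2
  · push Not at h0
    exact ⟨0, 1, fun x => by simp [ha, h0]⟩

end Gal

/-- The Suzuki 2-group. -/
@[ext] structure SU (F : Type*) where
  /-- first coordinate -/
  a : F
  /-- second coordinate -/
  b : F

instance instMulSU : Mul (SU F) := ⟨fun x y => ⟨x.a + y.a, x.b + y.b + θ x.a * y.a⟩⟩
instance instOneSU : One (SU F) := ⟨⟨0, 0⟩⟩
instance instInvSU : Inv (SU F) := ⟨fun x => ⟨x.a, x.b + x.a * θ x.a⟩⟩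

@[simp] theorem mul_a (x y : SU F) : (x * y).a = x.a + y.a := rfl
@[simp] theorem mul_b (x y : SU F) : (x * y).b = x.b + y.b + θ x.a * y.a := rfl
@[simp] theorem one_a : (1 : SU F).a = 0 := rfl
@[simp] theorem one_b : (1 : SU F).b = 0 := rfl
@[simp] theorem inv_a (x : SU F) : x⁻¹.a = x.a := rfl
@[simp] theorem inv_b (x : SU F) : x⁻¹.b = x.b + x.a * θ x.a := rfl

instance instGroupSU : Group (SU F) := Group.ofLeftAxioms
  (fun x y z => by ext <;> simp <;> ring) (fun x => by ext <;> simp) fun x => by ext <;> simp <;> grind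

/-- The isomorphism with the unipotent subgroup. -/
noncomputable def equivU (G : Type*) [Group G] [SzRep F G] : SU F ≃* U F G :=
  MulEquiv.ofBijective (MonoidHom.mk' (fun x : SU F => (⟨S G x.a x.b, S_mem_U _ _⟩ : U F G))
    fun _ _ => Subtype.ext (S_mul_S ..).symm) ⟨fun x y h => by
      have := S_inj.1 (show S G x.a x.b = S G y.a y.b from congrArg Subtype.val h)
      exact SU.ext this.1 this.2, by rintro ⟨_, a, b, rfl⟩; exact ⟨⟨a, b⟩, rfl⟩⟩

/-- An automorphism from its formula. -/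
noncomputable def mkAut [Finite F] (φ ψ f : F →+ F) (h1 : Function.Injective φ) (h2 : Function.Injective ψ)
    (h : ∀ x y, ψ (θ x * y) = θ (φ x) * φ y) : MulAut (SU F) :=
  haveI : Finite (SU F) := Finite.of_injective (fun x : SU F => (x.a, x.b)) fun _ _ h =>
    SU.ext (congrArg Prod.fst h) (congrArg Prod.snd h)
  MulEquiv.ofBijective (MonoidHom.mk' (fun x : SU F => (⟨φ x.a, ψ x.b + f x.a⟩ : SU F))
    fun x y => by ext <;> simp [h]; ring) (Finite.injective_iff_bijective.1 fun x y e => by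
      have e1 := h1 (congrArg SU.a e)
      have e2 : ψ x.b + f x.a = ψ y.b + f y.a := congrArg SU.b e
      rw [e1, add_left_inj] at e2
      exact SU.ext e1 (h2 e2))

variable [Finite F]

instance instFiniteSU : Finite (SU F) := Finite.of_injective (fun x : SU F => (x.a, x.b)) fun _ _ h =>
  SU.ext (congrArg Prod.fst h) (congrArg Prod.snd h)

theorem sq_eq (x : SU F) : x * x = ⟨0, x.a * θ x.a⟩ := by ext <;> simp <;> grind

theorem aut_z (α : MulAut (SU F)) (b : F) : (α ⟨0, b⟩).a = 0 := by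
  obtain ⟨a, rfl⟩ := mul_θ_surjective b
  rw [← sq_eq ⟨a, 0⟩, map_mul, sq_eq]

theorem aut_a (α : MulAut (SU F)) (x : SU F) : (α x).a = (α ⟨x.a, 0⟩).a := by
  have : x = ⟨x.a, 0⟩ * ⟨0, x.b⟩ := by ext <;> simp
  conv_lhs => rw [this, map_mul, mul_a, aut_z, add_zero]

theorem aut_b (α : MulAut (SU F)) (x : SU F) : (α x).b = (α ⟨0, x.b⟩).b + (α ⟨x.a, 0⟩).b := by
  have : x = ⟨0, x.b⟩ * ⟨x.a, 0⟩ := by ext <;> simp
  conv_lhs => rw [this, map_mul, mul_b, aut_z, map_zero, zero_mul, add_zero]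

/-- The action on `S/Z(S)`. -/
def phi (α : MulAut (SU F)) : F →+ F :=
  AddMonoidHom.mk' (fun a => (α ⟨a, 0⟩).a) fun a c => by rw [← mul_a, ← map_mul, aut_a α (_ * _)]; rfl

/-- The action on `Z(S)`. -/
def psi (α : MulAut (SU F)) : F →+ F :=
  AddMonoidHom.mk' (fun b => (α ⟨0, b⟩).b) fun b d => by
    have : (⟨0, b + d⟩ : SU F) = ⟨0, b⟩ * ⟨0, d⟩ := by ext <;> simp
    rw [this, map_mul, mul_b, aut_z α d, mul_zero, add_zero]

theorem psi_phi (α : MulAut (SU F)) (x : F) : psi α (x * θ x) = phi α x * θ (phi α x) := by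
  change (α ⟨0, x * θ x⟩).b = _
  rw [← sq_eq ⟨x, 0⟩, map_mul, sq_eq]; rfl

variable (F) in
/-- The action on `S/Z(S)`. -/
def Phi : MulAut (SU F) →* Equiv.Perm F :=
  MonoidHom.toHomPerm (G := MulAut (SU F)) ⟨⟨fun α a => phi α a, rfl⟩, fun α β => funext fun _ => aut_a α _⟩

theorem Phi_apply (α : MulAut (SU F)) (x : F) : Phi F α x = phi α x := rfl

theorem ker_form {α : MulAut (SU F)} (h : α ∈ (Phi F).ker) (x : SU F) : α x = ⟨x.a, x.b + (α ⟨x.a, 0⟩).b⟩ := by
  have h1 : ∀ a, phi α a = a := fun a => DFunLike.congr_fun h a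
  refine SU.ext ((aut_a α x).trans (h1 _)) ((aut_b α x).trans ?_)
  obtain ⟨a, ha⟩ := mul_θ_surjective x.b
  have := psi_phi α a
  rw [h1] at this
  exact congrArg (· + _) (ha ▸ this)

theorem card_ker : Nat.card (Phi F).ker = Nat.card (F →+ F) := by
  symm
  refine Nat.card_congr (Equiv.ofBijective (fun f => ⟨mkAut (.id F) (.id F) f (fun _ _ h => h) (fun _ _ h => h)
    fun _ _ => rfl, Equiv.ext fun _ => rfl⟩) ⟨fun f g h => AddMonoidHom.ext fun a => ?_, fun α => ?_⟩)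
  · exact add_left_cancel (congrArg (fun α : (Phi F).ker => (α.1 ⟨a, 0⟩).b) h)
  · refine ⟨AddMonoidHom.mk' (fun a => (α.1 ⟨a, 0⟩).b) fun a c => ?_,
      Subtype.ext (MulEquiv.ext fun x => (ker_form α.2 x).symm)⟩
    have := congrArg SU.b (map_mul α.1 ⟨a, 0⟩ ⟨c, 0⟩)
    rw [ker_form α.2, mul_b (α.1 _), ker_form α.2 ⟨a, 0⟩, ker_form α.2 ⟨c, 0⟩] at this
    simp only [mul_a, mul_b] at this
    linear_combination this

theorem ker_ea : IsElementaryAbelian 2 (Phi F).ker := by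
  have k : ∀ α ∈ (Phi F).ker, ∀ β ∈ (Phi F).ker, ∀ x,
      (α * β) x = ⟨x.a, x.b + ((α ⟨x.a, 0⟩).b + (β ⟨x.a, 0⟩).b)⟩ := fun α hα β hβ x => by
    rw [MulAut.mul_apply, ker_form hβ, ker_form hα]
    ext <;> simp; ring
  refine ⟨⟨⟨fun α β => Subtype.ext (MulEquiv.ext fun x => ?_)⟩⟩, fun α hα => MulEquiv.ext fun x => ?_⟩
  · exact (k _ α.2 _ β.2 x).trans (((k _ β.2 _ α.2 x).trans (by rw [add_comm (β.1 _).b])).symm)
  · rw [sq, k α hα α hα, CharTwo.add_self_eq_zero, add_zero]; rfl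

variable [Algebra (ZMod 2) F]

theorem card_range (ho : Odd (Module.finrank (ZMod 2) F)) :
    Nat.card (Phi F).range = Module.finrank (ZMod 2) F * (Nat.card F - 1) := by
  rw [← IsGalois.card_aut_eq_finrank, ← Nat.card_units, ← Nat.card_prod]
  symm
  refine Nat.card_congr (Equiv.ofBijective (fun p => ⟨_, mkAut ((AddMonoidHom.mulLeft p.2.1).comp p.1.toAddEquiv)
    ((AddMonoidHom.mulLeft (p.2.1 * θ p.2.1)).comp p.1.toAddEquiv) 0
    ((mul_right_injective₀ p.2.ne_zero).comp p.1.injective)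
    ((mul_right_injective₀ (mul_ne_zero p.2.ne_zero (θ_ne_zero p.2.ne_zero))).comp p.1.injective)
    (fun x y => by simp [gal_θ]; ring), rfl⟩) ⟨?_, ?_⟩)
  · rintro ⟨σ, l⟩ ⟨τ, k⟩ h
    have e : ∀ x, l.1 * σ x = k.1 * τ x := fun x => congrArg (fun g : (Phi F).range => g.1 x) h
    obtain rfl : l = k := Units.ext (by simpa using e 1)
    obtain rfl : σ = τ := AlgEquiv.ext fun x => mul_left_cancel₀ l.ne_zero (e x)
    rfl
  · rintro ⟨_, α, rfl⟩
    obtain ⟨l, σ, h⟩ := gold ho (phi α) (psi α) (psi_phi α)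
    have hl : l ≠ 0 := fun e => one_ne_zero ((Phi F α).injective (a₁ := 1) (a₂ := 0) (by
      simp [Phi_apply, h, e]))
    exact ⟨(σ, Units.mk0 l hl), Subtype.ext (Equiv.ext fun x => (h x).symm)⟩

theorem main {n : ℕ} (hn : Module.finrank (ZMod 2) F = n) (ho : Odd n) {A : Type*} [Group A]
    (e : MulAut (SU F) ≃* A) : IsElementaryAbelian 2 (pCore 2 A) ∧ Nat.card (pCore 2 A) = 2 ^ n ^ 2 ∧
      Nat.card A = 2 ^ n ^ 2 * (n * (2 ^ n - 1)) := by
  have c1 : Nat.card (Phi F).ker = 2 ^ n ^ 2 := by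
    rw [card_ker, Nat.card_congr (AddMonoidHom.toZModLinearMapEquiv 2).toEquiv,
      Module.natCard_eq_pow_finrank (K := ZMod 2), Module.finrank_linearMap, hn, Nat.card_zmod, sq]
  have c2 := card_range (hn ▸ ho)
  rw [Module.natCard_eq_pow_finrank (K := ZMod 2) (V := F), hn, Nat.card_zmod] at c2
  have c3 : pCore 2 (MulAut (SU F)) = (Phi F).ker := by
    refine le_antisymm (Subgroup.map_eq_bot_iff _ |>.1 (card_eq_one.1 ?_)) (Solv.le_pCore (IsPGroup.of_card c1))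
    obtain ⟨k, hk⟩ := IsPGroup.iff_card.1 ((Solv.isPGroup_pCore 2 (MulAut (SU F))).map (Phi F))
    refine Nat.eq_one_of_dvd_coprimes (a := 2 ^ k) (Nat.Coprime.pow_left k (Nat.coprime_two_left.2 ?_)) hk.dvd
      (card_dvd_of_le (map_le_range _ _))
    rw [c2]
    exact ho.mul (Nat.Even.sub_odd Nat.one_le_two_pow (Nat.even_pow.2 ⟨even_two, ho.pos.ne'⟩) odd_one)
  rw [← Solv.map_pCore_equiv e, c3]
  refine ⟨⟨?_, ?_⟩, (card_map_of_injective e.injective).trans c1, ?_⟩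
  · have := (ker_ea (F := F)).1
    infer_instance
  · rintro _ ⟨α, hα, rfl⟩
    rw [← map_pow, ker_ea.2 α hα, map_one]
  · rw [← Nat.card_congr e.toEquiv, ← (Phi F).ker.card_mul_index, index_ker, c1, c2]

end Cfsg.Agent.Sz.AutU
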